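import Groth.Prelude.Def_Pi1
import Groth.Agent.Ega2.Normal
import Mathlib.AlgebraicGeometry.Morphisms.UniversallyClosed
import Mathlib.AlgebraicGeometry.Morphisms.UniversallyInjective
import Mathlib.AlgebraicGeometry.Morphisms.Integral
import Mathlib.AlgebraicGeometry.FunctionField

/-!
# Universally closed + universally injective + birational onto a normal scheme is an isomorphism
-/

set_option autoImplicit false
universe u
open CategoryTheory CategoryTheory.Limits AlgebraicGeometry

namespace Groth.Agent.Ega2.H277.UnivHomeo

/-- A universally closed, universally injective morphism is integral. -/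
theorem isIntegralHom_of_universallyClosed_of_universallyInjective {X Y : Scheme.{u}} (f : X ⟶ Y)
    [UniversallyClosed f] [UniversallyInjective f] : IsIntegralHom f := by
  have hc : Topology.IsClosedEmbedding f :=
    Topology.IsClosedEmbedding.of_continuous_injective_isClosedMap f.continuous
      (Scheme.Hom.injective f) f.isClosedMap
  have : IsAffineHom f := isAffineHom_of_isInducing f hc.isInducing hc.isClosed_range
  exact IsIntegralHom.iff_universallyClosed_and_isAffineHom.mpr ⟨inferInstance, inferInstance⟩

/-- A point `x` over the generic point of the integral scheme `V` with trivial residue field extension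
gives a section over the generic point. -/
theorem exists_functionField_section {U V : Scheme.{u}} [IsIntegral V] (h : U ⟶ V) (x : U)
    (hx : h x = genericPoint V) (hb : Function.Bijective (h.residueFieldMap x).hom) :
    ∃ t : Spec V.functionField ⟶ U, t ≫ h = V.fromSpecStalk (genericPoint V) := by
  let e : V.functionField ⟶ V.presheaf.stalk (h x) :=
    V.presheaf.stalkSpecializes (specializes_of_eq hx)
  have he : IsIso e := by
    refine ⟨V.presheaf.stalkSpecializes (specializes_of_eq hx.symm), ?_, ?_⟩
    · simp [e, TopCat.Presheaf.stalkSpecializes_comp, TopCat.Presheaf.stalkSpecializes_refl]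
    · simp [e, TopCat.Presheaf.stalkSpecializes_comp, TopCat.Presheaf.stalkSpecializes_refl]
  let r : V.functionField ⟶ U.residueField x := e ≫ V.residue (h x) ≫ h.residueFieldMap x
  have hr : IsIso r := by
    refine (ConcreteCategory.isIso_iff_bijective r).mpr ⟨?_, ?_⟩
    · exact RingHom.injective (R := V.functionField) r.hom
    · have h1 : Function.Surjective e.hom := ((ConcreteCategory.isIso_iff_bijective e).mp he).2
      have h2 : Function.Surjective (V.residue (h x)).hom := V.residue_surjective (h x)
      exact (hb.2.comp h2).comp h1
  refine ⟨Spec.map (inv r) ≫ U.fromSpecResidueField x, ?_⟩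
  have h1 : U.fromSpecResidueField x ≫ h =
      Spec.map (h.residueFieldMap x) ≫ V.fromSpecResidueField (h x) :=
    (Scheme.Hom.SpecMap_residueFieldMap_fromSpecResidueField h x).symm
  have h2 : V.fromSpecStalk (h x) = Spec.map e ≫ V.fromSpecStalk (genericPoint V) :=
    (Scheme.SpecMap_stalkSpecializes_fromSpecStalk (specializes_of_eq hx)).symm
  rw [Category.assoc, h1, Scheme.fromSpecResidueField, h2, ← Spec.map_comp_assoc, ← Spec.map_comp_assoc,
    ← Spec.map_comp_assoc]
  have h3 : (e ≫ V.residue (h x)) ≫ h.residueFieldMap x ≫ inv r = 𝟙 _ := by
    rw [← Category.assoc, Category.assoc e]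
    exact IsIso.hom_inv_id r
  simp only [Category.assoc] at h3 ⊢
  rw [h3, Spec.map_id, Category.id_comp]

end Groth.Agent.Ega2.H277.UnivHomeo
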